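import Mathlib.GroupTheory.GroupAction.Basic
import Mathlib.SetTheory.Cardinal.Finite
import Mathlib.Algebra.Group.Subgroup.Finite
import Mathlib.Algebra.BigOperators.Group.Finset.Basic
import Mathlib.Algebra.BigOperators.GroupWithZero.Finset
import Mathlib.Data.Fintype.BigOperators
import Mathlib.Data.Finset.Card

/-! Equality of all fixed-point counts transfers regular points: if two finite families of
subgroups of `A` (point stabilisers) give the same count above every subgroup, they give the same
count at every subgroup. -/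

set_option autoImplicit false
set_option linter.style.haveILetI false

namespace Cfsg.Agent.H20.BaseTwo

variable {A : Type*} [Group A] [Finite A]

theorem card_eq_of_card_ge {X Y : Type*} [Finite X] [Finite Y] (s : X → Subgroup A)
    (t : Y → Subgroup A)
    (h : ∀ B : Subgroup A, Nat.card {x : X // B ≤ s x} = Nat.card {y : Y // B ≤ t y})
    (B : Subgroup A) : Nat.card {x : X // s x = B} = Nat.card {y : Y // t y = B} := by
  classical
  haveI : Finite (Subgroup A) := Finite.of_injective _ SetLike.coe_injective
  letI := Fintype.ofFinite X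
  letI := Fintype.ofFinite Y
  letI := Fintype.ofFinite (Subgroup A)
  induction B using WellFoundedGT.induction with
  | _ B ih =>
    have hB := h B
    simp only [Nat.card_eq_fintype_card, Fintype.card_subtype] at hB ih ⊢
    rw [Finset.card_eq_sum_card_fiberwise (f := s) (t := Finset.univ.filter fun C => B ≤ C)
        (fun x hx => by simpa using hx),
      Finset.card_eq_sum_card_fiberwise (f := t) (t := Finset.univ.filter fun C => B ≤ C)
        (fun x hx => by simpa using hx)] at hB
    have e1 : ∀ C, B ≤ C → (Finset.univ.filter fun x => B ≤ s x).filter (fun x => s x = C) =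
        Finset.univ.filter fun x => s x = C := fun C hC => by
      ext x; simp only [Finset.mem_filter, Finset.mem_univ, true_and]
      exact ⟨fun h => h.2, fun h => ⟨h ▸ hC, h⟩⟩
    have e2 : ∀ C, B ≤ C → (Finset.univ.filter fun x => B ≤ t x).filter (fun x => t x = C) =
        Finset.univ.filter fun x => t x = C := fun C hC => by
      ext x; simp only [Finset.mem_filter, Finset.mem_univ, true_and]
      exact ⟨fun h => h.2, fun h => ⟨h ▸ hC, h⟩⟩
    have f1 : ∑ C ∈ Finset.univ.filter (fun C => B ≤ C),
          ((Finset.univ.filter fun x => B ≤ s x).filter (fun x => s x = C)).card =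
        ∑ C ∈ Finset.univ.filter (fun C => B ≤ C), (Finset.univ.filter fun x => s x = C).card :=
      Finset.sum_congr rfl fun C hC => by rw [e1 C (Finset.mem_filter.1 hC).2]
    have f2 : ∑ C ∈ Finset.univ.filter (fun C => B ≤ C),
          ((Finset.univ.filter fun x => B ≤ t x).filter (fun x => t x = C)).card =
        ∑ C ∈ Finset.univ.filter (fun C => B ≤ C), (Finset.univ.filter fun x => t x = C).card :=
      Finset.sum_congr rfl fun C hC => by rw [e2 C (Finset.mem_filter.1 hC).2]
    rw [f1, f2, ← Finset.add_sum_erase _ _ (Finset.mem_filter.2 ⟨Finset.mem_univ B, le_rfl⟩),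
      ← Finset.add_sum_erase _ _ (Finset.mem_filter.2 ⟨Finset.mem_univ B, le_rfl⟩),
      Finset.sum_congr rfl (fun C hC => ih C (lt_of_le_of_ne
        (Finset.mem_filter.1 (Finset.mem_of_mem_erase hC)).2
        (Ne.symm (Finset.ne_of_mem_erase hC))))] at hB
    exact Nat.add_right_cancel hB

omit [Finite A] in
theorem card_inf_ge {Z : Type*} (u : Z → Subgroup A) (B : Subgroup A) :
    Nat.card {q : Z × Z // B ≤ u q.1 ⊓ u q.2} =
      Nat.card {q : Z // B ≤ u q} * Nat.card {q : Z // B ≤ u q} := by
  rw [← Nat.card_prod]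
  exact Nat.card_congr ((Equiv.subtypeEquivRight fun q : Z × Z => le_inf_iff).trans
    (Equiv.subtypeProdEquivProd (p := fun z => B ≤ u z) (q := fun z => B ≤ u z)))

/-- If two finite families have the same counts above each subgroup and the second has a pair of
members with trivial meet, then so does the first. -/
theorem exists_pair_of_card_ge {X Y : Type*} [Finite X] [Finite Y] (s : X → Subgroup A)
    (t : Y → Subgroup A)
    (h : ∀ B : Subgroup A, Nat.card {x : X // B ≤ s x} = Nat.card {y : Y // B ≤ t y})
    (hY : ∃ y z : Y, t y ⊓ t z = ⊥) : ∃ x w : X, s x ⊓ s w = ⊥ := by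
  obtain ⟨y, z, hyz⟩ := hY
  have he := card_eq_of_card_ge (fun q : X × X => s q.1 ⊓ s q.2) (fun q : Y × Y => t q.1 ⊓ t q.2)
    (fun B => by rw [card_inf_ge, card_inf_ge, h]) ⊥
  haveI : Nonempty {q : Y × Y // t q.1 ⊓ t q.2 = ⊥} := ⟨⟨(y, z), hyz⟩⟩
  have hpos : 0 < Nat.card {q : X × X // s q.1 ⊓ s q.2 = ⊥} := he ▸ Nat.card_pos
  obtain ⟨⟨q, hq⟩⟩ := (Nat.card_pos_iff.1 hpos).1
  exact ⟨q.1, q.2, hq⟩

omit [Finite A] in
/-- Counts above a subgroup in a product of families with pointwise meets. -/
theorem card_pi_ge {ι : Type*} [Fintype ι] {Y : ι → Type*} (t : ∀ i, Y i → Subgroup A)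
    (B : Subgroup A) :
    Nat.card {f : ∀ i, Y i // B ≤ ⨅ i, t i (f i)} = ∏ i, Nat.card {y : Y i // B ≤ t i y} := by
  rw [← Nat.card_pi]
  exact Nat.card_congr ((Equiv.subtypeEquivRight fun f => le_iInf_iff).trans
    (Equiv.subtypePiEquivPi (β := Y) (p := fun i => fun y => B ≤ t i y)))

end Cfsg.Agent.H20.BaseTwo
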