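import Cfsg.Agent.S4375
import Mathlib.RepresentationTheory.Maschke
import Mathlib.RepresentationTheory.Submodule
import Mathlib.Algebra.Module.ZMod

/-! Two points with trivial common stabiliser for coprime soluble groups of automorphisms of
elementary abelian groups, given the linear theorem in odd characteristic. -/

set_option autoImplicit false
set_option linter.style.haveILetI false
set_option linter.unusedSectionVars false

namespace Cfsg.Agent.H20.BaseTwo

universe u

/-- The linear base-two theorem in odd characteristic. -/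
def LinearTwo : Prop :=
  ∀ (p : ℕ) [Fact p.Prime], p ≠ 2 → ∀ (V : Type u) [AddCommGroup V] [Finite V] [Module (ZMod p) V]
    (G : Type u) [Group G] [Finite G], Group.IsSolvable G → ∀ ρ : Representation (ZMod p) G V,
    Function.Injective ρ → (Nat.card G).Coprime (Nat.card V) →
    ∃ x y : V, ∀ g : G, ρ g x = x → ρ g y = y → g = 1

theorem exists_pair_of_module {p : ℕ} [Fact p.Prime] (hlin : LinearTwo.{u}) (V : Type u)
    [AddCommGroup V] [Finite V] [Module (ZMod p) V] (G : Type u) [Group G] [Finite G]
    (hs : Group.IsSolvable G) (ρ : Representation (ZMod p) G V) (hinj : Function.Injective ρ)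
    (hcop : (Nat.card G).Coprime p) :
    ∃ x y : V, ∀ g : G, ρ g x = x → ρ g y = y → g = 1 := by
  by_cases hp : p = 2
  · subst hp
    letI : DistribMulAction G V :=
      { smul := fun g v => ρ g v
        one_smul := fun v => by show ρ 1 v = v; rw [map_one]; rfl
        mul_smul := fun g h v => by show ρ (g * h) v = ρ g (ρ h v); rw [map_mul]; rfl
        smul_zero := fun g => map_zero (ρ g)
        smul_add := fun g x y => map_add (ρ g) x y }
    haveI : FaithfulSMul G V := ⟨fun {g h} e => hinj (LinearMap.ext e)⟩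
    haveI : NeZero (Nat.card G : ZMod 2) := ⟨fun h => by
      rw [ZMod.natCast_eq_zero_iff] at h
      exact absurd (Nat.dvd_gcd h dvd_rfl) (by rw [hcop.gcd_eq_one]; norm_num)⟩
    refine S4375.result (A := G) (V := V) ?_ ?_
    · exact (Nat.odd_iff.2 (Nat.two_dvd_ne_zero.1 fun h => absurd (Nat.dvd_gcd h dvd_rfl)
        (by rw [hcop.gcd_eq_one]; norm_num)))
    intro U hU
    let U' : Submodule (ZMod 2) V := AddSubgroup.toZModSubmodule 2 U
    have hU' : U' ∈ ρ.invtSubmodule :=
      (ρ.mem_invtSubmodule).2 fun g => fun x hx => hU g x hx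
    obtain ⟨W, hW⟩ := MonoidAlgebra.Submodule.exists_isCompl (ρ.mapSubmodule ⟨U', hU'⟩)
    have hc : IsCompl (⟨U', hU'⟩ : ρ.invtSubmodule) (ρ.mapSubmodule.symm W) :=
      (ρ.mapSubmodule.isCompl_iff).2 (by rwa [OrderIso.apply_symm_apply])
    set W' := ρ.mapSubmodule.symm W with hW'
    refine ⟨(W' : Submodule (ZMod 2) V).toAddSubgroup,
      fun g w hw => (ρ.mem_invtSubmodule).1 W'.2 g hw, ?_, ?_⟩
    · refine (AddSubgroup.eq_bot_iff_forall _).2 fun x hx => ?_
      have h := congrArg Subtype.val hc.disjoint.eq_bot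
      have hm : x ∈ U' ⊓ (W' : Submodule (ZMod 2) V) := ⟨hx.1, hx.2⟩
      have h' : U' ⊓ (W' : Submodule (ZMod 2) V) = ⊥ := h
      rw [h', Submodule.mem_bot] at hm
      exact hm
    · refine eq_top_iff.2 fun x _ => ?_
      have h' : U' ⊔ (W' : Submodule (ZMod 2) V) = ⊤ := congrArg Subtype.val hc.codisjoint.eq_top
      obtain ⟨a, ha, b, hb, hab⟩ := Submodule.mem_sup.1 (h'.symm ▸ Submodule.mem_top (x := x))
      exact AddSubgroup.mem_sup.2 ⟨a, ha, b, hb, hab⟩
  · haveI : Module.Finite (ZMod p) V := Module.Finite.of_finite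
    refine hlin p hp V G hs ρ hinj ?_
    rw [Module.natCard_eq_pow_finrank (K := ZMod p) (V := V), Nat.card_zmod]
    exact hcop.pow_right _

/-- The elementary abelian case. -/
theorem exists_pair_elementary {p : ℕ} [Fact p.Prime] (hlin : LinearTwo.{u}) {Q : Type u}
    [CommGroup Q] [Finite Q] (he : ∀ x : Q, x ^ p = 1) (G : Subgroup (MulAut Q))
    (hs : Group.IsSolvable G) (hcop : (Nat.card G).Coprime p) :
    ∃ x y : Q, ∀ g ∈ G, g x = x → g y = y → g = 1 := by
  letI : Module (ZMod p) (Additive Q) :=
    AddCommGroup.zmodModule (n := p) fun x => congrArg Additive.ofMul (he x.toMul)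
  let ρ : Representation (ZMod p) G (Additive Q) :=
    { toFun := fun g => (MonoidHom.toAdditive (g : MulAut Q).toMonoidHom).toZModLinearMap p
      map_one' := LinearMap.ext fun x => rfl
      map_mul' := fun g h => LinearMap.ext fun x => rfl }
  have hinj : Function.Injective ρ := fun g h e => Subtype.ext <| MulEquiv.ext fun x =>
    congrArg Additive.toMul (LinearMap.congr_fun e (Additive.ofMul x))
  haveI : Finite (MulAut Q) := Finite.of_injective (fun f : MulAut Q => (f : Q → Q))
    DFunLike.coe_injective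
  obtain ⟨x, y, hxy⟩ := exists_pair_of_module hlin (Additive Q) G hs ρ hinj hcop
  exact ⟨x.toMul, y.toMul, fun g hg hx hy => congrArg Subtype.val
    (hxy ⟨g, hg⟩ (congrArg Additive.ofMul hx) (congrArg Additive.ofMul hy))⟩

end Cfsg.Agent.H20.BaseTwo
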