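import Cfsg.Agent.H20.BaseTwo.Count
import Cfsg.Agent.H20.BaseTwo.Elementary
import Cfsg.Agent.H20.External
import Cfsg.Agent.H24.PGroupBasic
import Cfsg.Agent.H86.BaseTwo.Spec

/-! Coprime soluble operator groups have two points with trivial common stabiliser, given the
linear theorem: reduction to invariant Sylow subgroups and their Frattini quotients. -/

set_option autoImplicit false
set_option linter.style.haveILetI false
set_option linter.unusedSectionVars false

namespace Cfsg.Agent.H20.BaseTwo

open MulAction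
open scoped commutatorElement

universe u v

variable {A : Type v} {K : Type u} [Group A] [Finite A] [Group K] [Finite K]
  [MulDistribMulAction A K]

/-- The points of `K` fixed by a subgroup. -/
def fixK (B : Subgroup A) : Subgroup K where
  carrier := {k | ∀ b ∈ B, b • k = k}
  mul_mem' {x y} hx hy b hb := by rw [smul_mul', hx b hb, hy b hb]
  one_mem' b _ := smul_one b
  inv_mem' {x} hx b hb := by rw [smul_inv', hx b hb]

theorem le_stabilizer_iff_mem_fixK (B : Subgroup A) (k : K) :
    B ≤ stabilizer A k ↔ k ∈ fixK B := Iff.rfl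

theorem card_inf_fixK (hA : Group.IsSolvable A) (hcop : (Nat.card A).Coprime (Nat.card K))
    {p : ℕ} [Fact p.Prime] (P : Sylow p K)
    (hP : ∀ a : A, ∀ x ∈ (P : Subgroup K), a • x ∈ (P : Subgroup K)) (B : Subgroup A) :
    Nat.card ((P : Subgroup K) ⊓ fixK B : Subgroup K) =
      p ^ (Nat.card (fixK (K := K) B)).factorization p := by
  let φ : B →* MulAut K := (MulDistribMulAction.toMulAut A K).comp B.subtype
  haveI := H20.External.finite_semidirect φ
  haveI : Group.IsSolvable B := haveI := hA; inferInstance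
  have hc : (Nat.card B).Coprime (Nat.card K) :=
    hcop.coprime_dvd_left (Subgroup.card_subgroup_dvd_card B)
  obtain ⟨R⟩ : Nonempty (Sylow p (fixK (K := K) B)) := inferInstance
  set U : Subgroup K := (R : Subgroup (fixK (K := K) B)).map (fixK (K := K) B).subtype with hU
  set A' := (SemidirectProduct.inr : B →* K ⋊[φ] B).range
  set K' := (SemidirectProduct.inl : K →* K ⋊[φ] B).range
  have hAK : A' ≤ Subgroup.normalizer (K' : Set _) := by
    rw [Subgroup.le_normalizer_iff]
    rintro _ ⟨a, rfl⟩ _ ⟨k, rfl⟩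
    exact ⟨φ a k, (H20.External.conj_inl φ a k).symm⟩
  obtain ⟨S, hUS, hSA⟩ := H20.exists_invariant_sylow_ge hAK
    (by rw [H20.External.card_range_inr, H20.External.card_range_inl]; exact hc)
    (H20.External.solvable_range φ (Or.inl inferInstance)) p
    (U := U.map SemidirectProduct.inl) (Subgroup.map_le_range _ _)
    ((R.isPGroup'.map _).map _)
    (H20.External.range_le_normalizer φ U fun b x hx => by
      obtain ⟨r, hr, rfl⟩ := hx
      exact ⟨r, hr, (r.2 b b.2).symm⟩)
  let Q : Sylow p K := Sylow.ofCard (((S : Subgroup K').map K'.subtype).comap SemidirectProduct.inl) (by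
    rw [Nat.card_congr (Subgroup.equivMapOfInjective _ _
      (SemidirectProduct.inl_injective (φ := φ))).toEquiv,
      Subgroup.map_comap_eq_self (Subgroup.map_subtype_le _), H20.card_map_sylow,
      H20.External.card_range_inl])
  have hQ : ∀ b : B, ∀ x ∈ (Q : Subgroup K), φ b x ∈ (Q : Subgroup K) := fun b x hx => by
    have h := (Subgroup.le_normalizer_iff.1 hSA) (SemidirectProduct.inr b) ⟨b, rfl⟩
      (SemidirectProduct.inl x) hx
    rw [H20.External.conj_inl] at h
    exact h
  obtain ⟨c, hcB, hcQ⟩ := H20.External.invariant_sylow_conj φ hc (Or.inl inferInstance) Q P hQ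
    (fun b x hx => hP b x hx)
  have hUP : U.map (MulAut.conj c).toMonoidHom ≤ (P : Subgroup K) ⊓ fixK B := by
    rintro _ ⟨x, hx, rfl⟩
    refine ⟨?_, fun b hb => ?_⟩
    · rw [← hcQ, Sylow.coe_subgroup_smul]
      exact Subgroup.smul_mem_pointwise_smul x (MulAut.conj c) _ (hUS ⟨x, hx, rfl⟩)
    · obtain ⟨r, -, rfl⟩ := hx
      show b • (c * (r : K) * c⁻¹) = c * (r : K) * c⁻¹
      have hbc : b • c = c := hcB ⟨b, hb⟩
      rw [smul_mul', smul_mul', smul_inv', hbc, r.2 b hb]
  have hcardU : Nat.card (U.map (MulAut.conj c).toMonoidHom) =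
      p ^ (Nat.card (fixK (K := K) B)).factorization p := by
    rw [← R.card_eq_multiplicity,
      Nat.card_congr (Subgroup.equivMapOfInjective _ _ (Subgroup.subtype_injective _)).toEquiv]
    exact (Nat.card_congr (Subgroup.equivMapOfInjective U _ (MulAut.conj c).injective).toEquiv).symm
  have h1 := Subgroup.card_dvd_of_le hUP
  rw [hcardU] at h1
  obtain ⟨n, hn⟩ := IsPGroup.iff_card.mp (P.isPGroup'.to_le (inf_le_left :
    (P : Subgroup K) ⊓ fixK B ≤ P))
  rw [hn] at h1 ⊢
  have h2 : p ^ n ∣ Nat.card (fixK (K := K) B) := hn ▸ Subgroup.card_dvd_of_le inf_le_right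
  rw [(Fact.out : p.Prime).pow_dvd_iff_le_factorization Nat.card_pos.ne'] at h2
  rw [Nat.pow_dvd_pow_iff_le_right (Fact.out : p.Prime).one_lt] at h1
  rw [le_antisymm h2 h1]

/-- Two points of a `p`-group with trivial common stabiliser. -/
theorem exists_pair_pGroup (hlin : LinearTwo.{u}) (hA : Group.IsSolvable A) {p : ℕ}
    [Fact p.Prime] (P : Subgroup K) (hP : IsPGroup p P)
    (hcop : (Nat.card A).Coprime (Nat.card P)) (hinv : ∀ a : A, ∀ x ∈ P, a • x ∈ P) :
    ∃ x ∈ P, ∃ y ∈ P, ∀ a : A, a • x = x → a • y = y → ∀ z ∈ P, a • z = z := by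
  classical
  rcases eq_or_ne P ⊥ with rfl | hne
  · exact ⟨1, one_mem _, 1, one_mem _, fun a _ _ z hz => by
      rw [Subgroup.mem_bot.1 hz, smul_one]⟩
  let act : A →* MulAut P :=
    { toFun := fun a =>
        { toFun := fun x => ⟨a • (x : K), hinv a x x.2⟩
          invFun := fun x => ⟨a⁻¹ • (x : K), hinv a⁻¹ x x.2⟩
          left_inv := fun x => Subtype.ext (inv_smul_smul a (x : K))
          right_inv := fun x => Subtype.ext (smul_inv_smul a (x : K))
          map_mul' := fun x y => Subtype.ext (smul_mul' a (x : K) (y : K)) }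
      map_one' := MulEquiv.ext fun x => Subtype.ext (one_smul A (x : K))
      map_mul' := fun a b => MulEquiv.ext fun x => Subtype.ext (mul_smul a b (x : K)) }
  let Φ := frattini P
  haveI : Φ.Characteristic := inferInstance
  have hΦ : ∀ a, Φ.map (act a).toMonoidHom = Φ := fun a =>
    Subgroup.characteristic_iff_map_eq.1 inferInstance (act a)
  let ψ : A →* MulAut (P ⧸ Φ) :=
    { toFun := fun a => QuotientGroup.congr Φ Φ (act a) (hΦ a)
      map_one' := MulEquiv.ext fun q => by
        induction q using QuotientGroup.induction_on with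
        | _ x => exact congrArg QuotientGroup.mk (show act 1 x = x by rw [map_one]; rfl)
      map_mul' := fun a b => MulEquiv.ext fun q => by
        induction q using QuotientGroup.induction_on with
        | _ x => exact congrArg QuotientGroup.mk (show act (a * b) x = act a (act b x) by
            rw [map_mul]; rfl) }
  letI : CommGroup (P ⧸ Φ) :=
    { (inferInstance : Group (P ⧸ Φ)) with
      mul_comm := fun a b => by
        induction a using QuotientGroup.induction_on with | _ a => ?_
        induction b using QuotientGroup.induction_on with | _ b => ?_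
        refine QuotientGroup.eq.2 (H24.commutator_le_frattini hP ?_)
        rw [show (a * b)⁻¹ * (b * a) = ⁅b⁻¹, a⁻¹⁆ by rw [commutatorElement_def]; group]
        exact Subgroup.commutator_mem_commutator (Subgroup.mem_top _) (Subgroup.mem_top _) }
  have he : ∀ q : P ⧸ Φ, q ^ p = 1 := fun q => by
    induction q using QuotientGroup.induction_on with
    | _ x => exact (QuotientGroup.eq_one_iff _).2 (H24.pow_mem_frattini hP x)
  have hpP : p ∣ Nat.card P := by
    obtain ⟨n, hn⟩ := IsPGroup.iff_card.mp hP
    rw [hn]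
    refine dvd_pow_self p fun h0 => hne (Subgroup.eq_bot_of_card_eq P ?_)
    rw [hn, h0, pow_zero]
  obtain ⟨q₁, q₂, hq⟩ := exists_pair_elementary hlin he ψ.range
    (haveI := hA; Group.isSolvable_of_surjective ψ.rangeRestrict_surjective)
    ((hcop.coprime_dvd_left (Subgroup.card_range_dvd ψ)).coprime_dvd_right hpP)
  obtain ⟨x, rfl⟩ := QuotientGroup.mk_surjective q₁
  obtain ⟨y, rfl⟩ := QuotientGroup.mk_surjective q₂
  refine ⟨x, x.2, y, y.2, fun a hax hay z hz => ?_⟩
  have htriv : ψ a = 1 := hq (ψ a) ⟨a, rfl⟩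
    (congrArg QuotientGroup.mk (show act a x = x from Subtype.ext hax))
    (congrArg QuotientGroup.mk (show act a y = y from Subtype.ext hay))
  let C : Subgroup P := (act a).toMonoidHom.eqLocus (MonoidHom.id P)
  have htop : C ⊔ Φ = ⊤ := eq_top_iff.2 fun k _ => by
    let φ : Subgroup.zpowers a →* MulAut P := act.comp (Subgroup.zpowers a).subtype
    obtain ⟨c, hkc, hc⟩ := H20.External.exists_fixed_mem_coset φ
      (hcop.coprime_dvd_left (Subgroup.card_subgroup_dvd_card _))
      (Or.inl (haveI := hA; inferInstance)) Φ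
      (fun b n hn => by
        have := hΦ (b : A)
        rw [← this]
        exact Subgroup.mem_map_of_mem _ hn)
      (k := k) (fun b => by
        obtain ⟨_, n, rfl⟩ := b
        have h1 : ψ (a ^ n) = 1 := by rw [map_zpow, htriv, one_zpow]
        exact QuotientGroup.eq.1 (DFunLike.congr_fun h1 (QuotientGroup.mk k)).symm)
    have hcC : c ∈ C := hc ⟨a, Subgroup.mem_zpowers a⟩
    rw [show k = c * (k⁻¹ * c)⁻¹ by group]
    exact mul_mem (Subgroup.mem_sup_left hcC) (Subgroup.mem_sup_right (inv_mem hkc))
  have hz' : (⟨z, hz⟩ : P) ∈ C := (frattini_nongenerating htop).symm ▸ Subgroup.mem_top _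
  exact congrArg Subtype.val hz'

/-- The base-two theorem for coprime actions of soluble groups. -/
theorem exists_pair_of_linear (hlin : LinearTwo.{u}) [FaithfulSMul A K] (hA : Group.IsSolvable A)
    (hcop : (Nat.card A).Coprime (Nat.card K)) :
    ∃ x y : K, ∀ a : A, a • x = x → a • y = y → a = 1 := by
  classical
  haveI := hA
  set S := (Nat.card K).primeFactors
  haveI hfact : ∀ p : S, Fact (p : ℕ).Prime := fun p => ⟨Nat.prime_of_mem_primeFactors p.2⟩
  have hex : ∀ p : S, ∃ P : Sylow (p : ℕ) K, ∀ a : A, ∀ x ∈ (P : Subgroup K),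
      a • x ∈ (P : Subgroup K) := fun p =>
    H20.External.exists_invariant_sylow (MulDistribMulAction.toMulAut A K) hcop (Or.inl hA) p
  choose P hP using hex
  let t : ∀ p : S, ↥(P p : Subgroup K) → Subgroup A := fun p x => stabilizer A (x : K)
  have hcount : ∀ B : Subgroup A, Nat.card {k : K // B ≤ stabilizer A k} =
      Nat.card {f : ∀ p : S, ↥(P p : Subgroup K) // B ≤ ⨅ p, t p (f p)} := by
    intro B
    rw [card_pi_ge t B]
    have e1 : ∀ p : S, Nat.card {y : (P p : Subgroup K) // B ≤ t p y} =
        (p : ℕ) ^ (Nat.card (fixK (K := K) B)).factorization p := fun p => by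
      rw [← card_inf_fixK hA hcop (P p) (hP p) B]
      exact Nat.card_congr
        { toFun := fun y => ⟨(y.1 : K), y.1.2, y.2⟩
          invFun := fun k => ⟨⟨(k : K), k.2.1⟩, k.2.2⟩
          left_inv := fun _ => rfl
          right_inv := fun _ => rfl }
    rw [Finset.prod_congr rfl (fun p _ => e1 p)]
    show Nat.card (fixK (K := K) B) = _
    rw [← S.attach_eq_univ, Finset.prod_attach S
      (fun p => p ^ (Nat.card (fixK (K := K) B)).factorization p)]
    conv_lhs => rw [← Nat.prod_factorization_pow_eq_self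
      (Nat.card_pos (α := fixK (K := K) B)).ne']
    exact Finsupp.prod_of_support_subset _ (Nat.primeFactors_mono
      (Subgroup.card_subgroup_dvd_card _) Nat.card_pos.ne') _ (fun i _ => pow_zero i)
  have hY : ∃ f g : ∀ p : S, ↥(P p : Subgroup K), (⨅ p, t p (f p)) ⊓ (⨅ p, t p (g p)) = ⊥ := by
    have hloc := fun p : S => exists_pair_pGroup (A := A) hlin hA (P p : Subgroup K)
      (P p).isPGroup' (hcop.coprime_dvd_right (Subgroup.card_subgroup_dvd_card _)) (hP p)
    choose x hx y hy h using hloc
    refine ⟨fun p => ⟨x p, hx p⟩, fun p => ⟨y p, hy p⟩,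
      (Subgroup.eq_bot_iff_forall _).2 fun a ha => eq_of_smul_eq_smul (α := K) fun k => ?_⟩
    rw [one_smul]
    have hfix : ∀ p : S, ∀ z ∈ (P p : Subgroup K), a • z = z := fun p =>
      h p a ((Subgroup.mem_iInf.1 ha.1) p) ((Subgroup.mem_iInf.1 ha.2) p)
    let F : Subgroup K := fixK (Subgroup.zpowers a)
    have hmem : ∀ p : S, (P p : Subgroup K) ≤ F := fun p z hz b hb =>
      (Subgroup.zpowers_le.2 (show a ∈ stabilizer A z from hfix p z hz)) hb
    have hF : F = ⊤ := by
      refine Subgroup.eq_top_of_card_eq _ (Nat.eq_of_factorization_eq Nat.card_pos.ne'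
        Nat.card_pos.ne' fun q => le_antisymm ?_ ?_)
      · exact (Nat.factorization_le_iff_dvd Nat.card_pos.ne' Nat.card_pos.ne').2
          (Subgroup.card_subgroup_dvd_card F) q
      · by_cases hq : q ∈ S
        · haveI : Fact q.Prime := ⟨Nat.prime_of_mem_primeFactors hq⟩
          rw [← (Fact.out : q.Prime).pow_dvd_iff_le_factorization Nat.card_pos.ne',
            ← (P ⟨q, hq⟩).card_eq_multiplicity]
          exact Subgroup.card_dvd_of_le (hmem ⟨q, hq⟩)
        · rw [Finsupp.notMem_support_iff.1 (by rwa [Nat.support_factorization])]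
          exact Nat.zero_le _
    exact (hF.symm ▸ Subgroup.mem_top k : k ∈ F) a (Subgroup.mem_zpowers a)
  obtain ⟨x, w, hxw⟩ := exists_pair_of_card_ge (fun k : K => stabilizer A k)
    (fun f : ∀ p : S, ↥(P p : Subgroup K) => ⨅ p, t p (f p)) hcount hY
  exact ⟨x, w, fun a h1 h2 => Subgroup.mem_bot.1 (hxw ▸ ⟨h1, h2⟩)⟩

/-- The linear hypothesis from the main theorem on solvable linear groups. -/
theorem linearTwo_of_main (hmain : H86.BaseTwo.Main.{u}) : LinearTwo.{u} := by
  intro p _ hp V _ _ _ G _ _ hs ρ hinj hcop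
  rcases subsingleton_or_nontrivial V with hV | hV
  · exact ⟨0, 0, fun g _ _ => hinj (LinearMap.ext fun x => Subsingleton.elim _ _)⟩
  letI : DistribMulAction G V :=
    { smul := fun g v => ρ g v
      one_smul := fun v => by show ρ 1 v = v; rw [map_one]; rfl
      mul_smul := fun g h v => by show ρ (g * h) v = ρ g (ρ h v); rw [map_mul]; rfl
      smul_zero := fun g => map_zero (ρ g)
      smul_add := fun g x y => map_add (ρ g) x y }
  haveI : Module.Finite (ZMod p) V := Module.Finite.of_finite
  have hpV : p ∣ Nat.card V := by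
    rw [Module.natCard_eq_pow_finrank (K := ZMod p) (V := V), Nat.card_zmod]
    exact dvd_pow_self p Module.finrank_pos.ne'
  obtain ⟨x, y, h⟩ := hmain p hp G V hs
    (fun hpG => absurd (Nat.dvd_gcd hpG hpV) (by
      rw [hcop.gcd_eq_one]; exact fun h => (Fact.out : p.Prime).one_lt.ne' (Nat.dvd_one.1 h)))
    (fun x => by rw [← Nat.cast_smul_eq_nsmul (ZMod p), ZMod.natCast_self, zero_smul])
  refine ⟨x, y, fun g hx hy => hinj ?_⟩
  rw [map_one]
  exact LinearMap.ext fun z => h g hx hy z

/-- The base-two theorem for coprime actions, from the main linear theorem. -/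
theorem exists_pair (hmain : H86.BaseTwo.Main.{u}) [FaithfulSMul A K] (hA : Group.IsSolvable A)
    (hcop : (Nat.card A).Coprime (Nat.card K)) :
    ∃ x y : K, ∀ a : A, a • x = x → a • y = y → a = 1 :=
  exists_pair_of_linear (linearTwo_of_main hmain) hA hcop

end Cfsg.Agent.H20.BaseTwo
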